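import Cfsg.Agent.Lib.RD.W

/-!
Degrees of complex representations of `G₂(q)` in characteristic different from three.
-/

set_option autoImplicit false

namespace Cfsg.Agent.RD.G2

open Module Cfsg.Agent.Deg Cfsg.Agent.Chev Cfsg.Agent.ChevM Cfsg.Lie Finset

variable {F : Type*} [Field F] [Fintype F] {V : Type*} [AddCommGroup V] [Module ℂ V]
  {ρ : chevG2.group F →* End ℂ V} {ψ : AddChar F ℂ} {L : List (ℕ × F)} {r : ℕ} {a b : F}

theorem exists_gen (hq : 5 ≤ Fintype.card F) : ∃ t : F, t ≠ 0 ∧ t ≠ 1 ∧ t ^ 2 ≠ 1 ∧ t ^ 3 ≠ 1 := by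
  classical
  obtain ⟨g, hg⟩ := IsCyclic.exists_ofOrder_eq_natCard (α := Fˣ)
  rw [Nat.card_eq_fintype_card, Fintype.card_units] at hg
  have h : ∀ n, 0 < n → n < 4 → (g : F) ^ n ≠ 1 := fun n h0 h e => by
    have := Nat.le_of_dvd h0 (orderOf_dvd_of_pow_eq_one (show g ^ n = 1 from Units.ext e))
    omega
  exact ⟨g, g.ne_zero, by simpa using h 1, h 2 (by omega) (by omega), h 3 (by omega) (by omega)⟩

theorem all_ker (hq : 5 ≤ Fintype.card F) (h : (∀ t, x 11 t ∈ ρ.ker) ∨ ∀ t, x 9 t ∈ ρ.ker)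
    (r : Fin chevG2.nroots) : (PG chevG2 F).X r ≤ ρ.ker := by
  obtain ⟨s, h0, h1, -, h3⟩ := exists_gen hq
  have m : ∀ r s : Fin chevG2.nroots, len chevG2 s = len chevG2 r → (∀ t, x r t ∈ ρ.ker) →
      ∀ t, x s t ∈ ρ.ker := fun r s e h t => by
    obtain ⟨w, hw, rfl⟩ := exists_W_of_len_eq e
    exact X_le_ker_map hw (fun g hg => by obtain ⟨t, rfl⟩ := mem_X_iff.1 hg; exact h t) (xG_mem_X _ t)
  have c : ∀ t u : F, x 7 t ∈ ρ.ker ∨ x 6 u ∈ ρ.ker → x 8 (t * u) * (x 9 (t ^ 2 * u) *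
      (x 10 (-(t ^ 3 * u)) * x 11 (-(t ^ 3 * u ^ 2)))) ∈ ρ.ker := fun t u h => by
    have := swap (by decide : 6 < 12) (by decide : 7 < 12) (by decide) u t
    simp [ct, Odd.neg_pow (by decide : Odd 3)] at this
    rw [← inv_mul_eq_iff_eq_mul.2 this]
    rcases h with h | h
    · simpa [mul_assoc] using mul_mem (ρ.normal_ker.conj_mem _ (inv_mem h) (x 6 u)⁻¹) h
    · simpa [mul_assoc] using mul_mem (inv_mem h) (ρ.normal_ker.conj_mem _ h (x 7 t)⁻¹)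
  have : (∀ t, x 11 t ∈ ρ.ker) ∧ ∀ t, x 9 t ∈ ρ.ker := by
    rcases h with h | h
    · have h6 := m ⟨11, by decide⟩ ⟨6, by decide⟩ rfl h
      have h10 := m ⟨11, by decide⟩ ⟨10, by decide⟩ rfl h
      have c' := fun t u : F => (mul_mem_cancel_right (mul_mem (h10 _) (h _))).1
        (mul_assoc (x 8 (t * u)) _ _ ▸ c t u (.inr (h6 u)))
      refine ⟨h, fun t => ?_⟩
      have := mul_mem (inv_mem (c' 1 (s * (t / (s * (s - 1)))))) (c' s (t / (s * (s - 1))))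
      rw [one_mul, mul_inv_rev, mul_assoc, inv_mul_cancel_left, xG_inv, xG_add] at this
      convert this using 2
      field_simp [sub_ne_zero.2 h1]; ring
    · have h7 := m ⟨9, by decide⟩ ⟨7, by decide⟩ rfl h
      have h8 := m ⟨9, by decide⟩ ⟨8, by decide⟩ rfl h
      have c' := fun t u => (mul_mem_cancel_left (h _)).1 ((mul_mem_cancel_left (h8 _)).1
        (c t u (.inl (h7 t))))
      refine ⟨fun t => ?_, h⟩
      have := mul_mem (inv_mem (c' s 1)) (c' 1 (s ^ 3))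
      rw [one_pow 3, one_mul, mul_one, mul_inv_rev, mul_assoc, inv_mul_cancel_left, xG_inv, xG_add] at this
      by_cases e : t = 0
      · rw [e, x, xG_zero]; exact one_mem _
      have e' : s ^ 3 * (1 - s ^ 3) ≠ 0 := mul_ne_zero (pow_ne_zero _ h0) (sub_ne_zero.2 h3.symm)
      have := ρ.normal_ker.conj_mem _ this (hElt chevG2 x 6 (t / (s ^ 3 * (1 - s ^ 3))))
      rw [(r7_xG chevG2 F).h_conj_x (stRel_xG chevG2 F) ⟨6, by decide⟩ ⟨11, by decide⟩ (div_ne_zero e e'),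
        pair_eq] at this
      convert this using 2
      simp only [pr, List.getD_cons_succ, List.getD_cons_zero, zpow_one]
      field_simp [sub_ne_zero.2 h3.symm]; ring
  intro g hg
  obtain ⟨t, rfl⟩ := mem_X_iff.1 hg
  rcases (by decide : ∀ r : Fin chevG2.nroots, len chevG2 r = len chevG2 11 ∨
    len chevG2 r = len chevG2 9) r with e | e
  · exact m ⟨11, by decide⟩ r e this.1 t
  · exact m ⟨9, by decide⟩ r e this.2 t

variable [FiniteDimensional ℂ V] (hψ : ψ ≠ 1)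
include hψ

theorem exists_wt (h : ¬ ∀ t, x r t ∈ ρ.ker) : ∃ a ≠ 0, 0 < dm ρ ψ [(r, a)] := by
  by_contra! e
  refine h fun t => LinearMap.ext fun v => ?_
  simpa using (mem_cons.1 (le_of_wt hψ (ρ := ρ) (r := r) (L := []) (Z := Ws ρ ψ [(r, 0)])
    (fun _ _ _ _ h => by simp at h) (fun a => by
      by_cases h : a = 0
      · rw [h]
      · exact (Submodule.finrank_eq_zero.1 (Nat.le_zero.1 (e a h))).trans_le bot_le)
    (x := v) fun _ h => by simp at h)).1 t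

variable (h3 : (3 : F) ≠ 0) (hq : 5 ≤ Fintype.card F) (hk : finrank ℂ V ≤ Fintype.card F ^ 3)
include hq hk

theorem le_one (h : ∀ b ≠ 0, dm ρ ψ [(r, a)] ≤ dm ρ ψ [(r, b)]) {d e : ℕ} (h1 : Fintype.card F * d ≤ e)
    (h2 : Fintype.card F * e ≤ dm ρ ψ [(r, a)]) : d ≤ 1 := by
  have h4 := (le_of_add_le_right (split hψ h)).trans (dm_nil.trans_le hk)
  obtain ⟨s, hs⟩ := Nat.exists_eq_add_of_le' hq
  rw [hs] at h1 h2 h4
  by_contra! h5
  have := (Nat.mul_le_mul_left _ ((Nat.mul_le_mul_left _ ((Nat.mul_le_mul_left _ h5).trans h1)).trans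
    h2)).trans h4
  rw [show s + 5 - 1 = s + 4 from rfl] at this
  ring_nf at this
  omega

include h3

theorem line (ha : a ≠ 0) : dm ρ ψ [(7, 0), (11, 0), (10, a)] ≤ 1 :=
  le_one hψ hq hk (r := 10) (fun b hb => (hmap 11 (div_ne_zero hb ha)
    (h2 := by simp [lk, pr, mul_div_cancel₀, ha])).le)
    (heis hψ (s := 9) (mul_ne_zero h3 ha) (fun _ _ => mv 0 Nat.cast_zero) 0)
    (heis hψ (s := 5) (neg_ne_zero.2 ha) (fun _ _ => mv 0 Nat.cast_zero) 0)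

theorem top (h : ¬ ∀ t, x 11 t ∈ ρ.ker) (ha : a ≠ 0) :
    0 < dm ρ ψ [(3, 0), (5, 0), (7, 0), (9, 0), (10, 0), (11, a)] := by
  obtain ⟨t, h0, h1, h2, h4⟩ := exists_gen hq
  have tr : ∀ {a b : F}, a ≠ 0 → b ≠ 0 → dm ρ ψ [(11, a)] ≤ dm ρ ψ [(11, b)] := fun ha hb =>
    (hmap 6 (div_ne_zero hb ha) (h2 := by simp [lk, pr, mul_div_cancel₀, ha])).le
  have s1 : ∀ c u, Mv ρ ψ (x 6 u) [(10, c), (11, a)] [(10, c + -a * u), (11, a)] :=
    fun _ _ => mv 0 Nat.cast_zero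
  have s2 : ∀ c u, Mv ρ ψ (x 8 u) [(9, c), (10, 0), (11, a)] [(9, c + -(3 * a) * u), (10, 0), (11, a)] :=
    fun _ _ => mv 0 Nat.cast_zero
  have n1 := neg_ne_zero.2 ha
  have n2 := neg_ne_zero.2 (mul_ne_zero h3 ha)
  have b1 := le_one hψ hq hk (fun _ => tr ha) (heis hψ n2 s2 0) (heis hψ n1 s1 0)
  obtain ⟨b, hb, b2⟩ := exists_wt hψ h
  refine (((heis_pos hψ n2 s2 (fun _ => mv 0 Nat.cast_zero) (heis_pos hψ n1 s1
    (fun _ => mv 0 Nat.cast_zero) (b2.trans_le (tr hb ha)) 0) 0).trans_le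
    (triv_one hψ (fun _ => mv 0 Nat.cast_zero) b1 h2 fun _ => hmap 7 h0)).trans_le
    (triv_one hψ (fun _ => mv 0 Nat.cast_zero) (le_trans pm b1) h4 fun _ => hmap 7 h0)).trans_le
    (triv_one hψ (fun _ => mv 0 Nat.cast_zero) (le_trans pm b1) h1 fun _ => hmap 7 h0)

theorem top10 (h : ¬ ∀ t, x 11 t ∈ ρ.ker) (ha : a ≠ 0) :
    0 < dm ρ ψ [(4, 0), (6, 0), (8, 0), (9, 0), (11, 0), (10, a)] :=
  (top hψ h3 hq hk h (sg_ne (r := 6) (s := 10) (by decide) (by decide) ha)).trans_le (nmap 6).le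

theorem count (h : ¬ ∀ t, x 11 t ∈ ρ.ker) :
    dm ρ ψ [(6, 0), (10, 0), (11, 0)] + Fintype.card F ^ 3 ≤ finrank ℂ V + 1 := by
  have c1 := split hψ (ρ := ρ) (r := 11) (L := []) (d := Fintype.card F * (Fintype.card F * 1))
    fun a ha => (Nat.mul_le_mul_left _ ((Nat.mul_le_mul_left _ ((top hψ h3 hq hk h ha).trans_le pm)).trans
      (heis hψ (s := 8) (r := 9) (neg_ne_zero.2 (mul_ne_zero h3 ha)) (fun _ _ => mv 0 Nat.cast_zero) 0))).trans
      (heis hψ (s := 6) (r := 10) (neg_ne_zero.2 ha) (fun _ _ => mv 0 Nat.cast_zero) 0)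
  have c2 := split hψ (ρ := ρ) (r := 10) (L := [(11, 0)]) (d := Fintype.card F * 1)
    fun a ha => (Nat.mul_le_mul_left _ ((top10 hψ h3 hq hk h ha).trans_le pm)).trans
      (heis hψ (s := 7) (r := 9) (neg_ne_zero.2 (mul_ne_zero h3 ha)) (fun _ _ => mv 0 Nat.cast_zero) 0)
  have c3 := split hψ (ρ := ρ) (r := 6) (L := [(10, 0), (11, 0)]) (d := 1) fun a ha =>
    (top10 hψ h3 hq hk h (sg_ne (r := 7) (s := 6) (by decide) (by decide) ha)).trans_le (nmap 7).le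
  rw [dm_nil] at c1
  obtain ⟨s, hs⟩ := Nat.exists_eq_add_of_le' hq
  rw [hs, show s + 5 - 1 = s + 4 from rfl] at c1 c2 c3
  rw [hs]
  ring_nf at c1 c2 c3 ⊢
  omega

end Cfsg.Agent.RD.G2
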