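import Cfsg.Agent.Lib.RD.G2a

/-!
Small representations of `G₂(q)` for `q ≡ 1 (mod 3)`.
-/

set_option autoImplicit false

namespace Cfsg.Agent.RD.G2

open Module Cfsg.Agent.Deg Cfsg.Agent.Chev Cfsg.Agent.ChevM Cfsg.Lie Finset

open scoped ComplexOrder in
theorem exists_form {G : Type*} [Group G] [Finite G] {k : ℕ} (ρ : G →* End ℂ (Fin k → ℂ)) :
    ∃ B : (Fin k → ℂ) →ₗ⋆[ℂ] (Fin k → ℂ) →ₗ[ℂ] ℂ, (∀ g y z, B y (ρ g z) = B (ρ g⁻¹ y) z) ∧
      ∀ y, B y y = 0 → y = 0 := by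
  have := Fintype.ofFinite G
  refine ⟨LinearMap.mk₂'ₛₗ _ _ (fun y z => ∑ g, ∑ i, star (ρ g y i) * ρ g z i) (by simp [add_mul, sum_add_distrib])
    (by simp [mul_sum, mul_assoc]) (by simp [mul_add, sum_add_distrib]) (by simp [mul_sum, mul_left_comm]),
    fun g y z => Fintype.sum_equiv (Equiv.mulRight g) _ _ fun h => by
      simp only [Equiv.coe_mulRight, rep_mul, rep_inv'], fun y h => ?_⟩
  have h1 := (sum_eq_zero_iff_of_nonneg fun g _ => sum_nonneg fun i _ => star_mul_self_nonneg _).1 h 1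
    (mem_univ _)
  ext i
  simpa using (sum_eq_zero_iff_of_nonneg fun i _ => star_mul_self_nonneg _).1 h1 i (mem_univ _)

variable {F : Type*} [Field F] [Fintype F] {V : Type*} [AddCommGroup V] [Module ℂ V]
  {ρ : chevG2.group F →* End ℂ V} {ψ : AddChar F ℂ} {L : List (ℕ × F)} {r : ℕ} {a b : F} {y z : V}

theorem avg_mem (h : ∀ t, Mv ρ ψ (x r t) L L) (hy : y ∈ Ws ρ ψ L) :
    ∑ t, ρ (x r t) y ∈ Ws ρ ψ ((r, 0) :: L) :=
  mem_cons.2 ⟨fun t => by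
    rw [map_sum, zero_mul, AddChar.map_zero_eq_one, one_smul]
    exact Fintype.sum_equiv (Equiv.addLeft t) _ _ fun u => by simp [← rep_mul, xG_add],
    Submodule.sum_mem _ fun t _ => h t y hy⟩

omit [Fintype F] in
theorem dm_one [FiniteDimensional ℂ V] (h : dm ρ ψ L ≤ 1) (hy : y ∈ Ws ρ ψ L) (hz : z ∈ Ws ρ ψ L)
    (h0 : y ≠ 0) : ∃ c : ℂ, z = c • y := by
  obtain ⟨v, hv⟩ := finrank_le_one_iff.1 h
  obtain ⟨c, hc⟩ := hv ⟨y, hy⟩
  obtain ⟨d, hd⟩ := hv ⟨z, hz⟩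
  obtain rfl : c • v.1 = y := congrArg Subtype.val hc
  obtain rfl : d • v.1 = z := congrArg Subtype.val hd
  exact ⟨d / c, by rw [smul_smul, div_mul_cancel₀ _ (left_ne_zero_of_smul h0)]⟩

theorem no_scale (hψ : ψ ≠ 1) (hq : Fintype.card F % 3 = 1)
    (h : ∀ a : F, a ≠ 0 → ∃ κ : ℂ, ∀ s ≠ 0, ∑ t, ψ (-t ^ 3 * s) = κ * ∑ t, ψ (-t ^ 3 * (a * s))) :
    False := by
  classical
  have : Fact (Nat.Prime 3) := ⟨by norm_num⟩
  obtain ⟨w, hw⟩ := exists_prime_orderOf_dvd_card (G := Fˣ) 3 (by rw [Fintype.card_units]; omega)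
  obtain ⟨a, ha⟩ := not_forall.1 (mt (Finite.injective_iff_surjective (f := fun t : F => t ^ 3)).2 fun e => by
    have : (w : F) = 1 := e (by simp [← Units.val_pow_eq_pow_val, ← hw])
    rw [Units.val_eq_one.1 this, orderOf_one] at hw; omega)
  have h0 : a ≠ 0 := fun e => ha ⟨0, by simp [e]⟩
  obtain ⟨κ, h⟩ := h a h0
  have hT : ∀ b, ∑ s, (∑ t, ψ (-t ^ 3 * s)) * ψ (s * b) = #{t | t ^ 3 = b} * Fintype.card F := fun b => by
    simp only [sum_mul, ← AddChar.map_add_eq_mul]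
    rw [sum_comm, sum_congr rfl fun t _ => (sum_congr rfl fun s _ => congrArg ψ (by ring)).trans
      (AddChar.sum_mulShift (b - t ^ 3) (AddChar.IsPrimitive.of_ne_one hψ))]
    simp only [sub_eq_zero, @eq_comm _ b]
    simp [← sum_filter]
  have hb : ∀ b, (#{t | t ^ 3 = a * b} * Fintype.card F : ℂ) - κ * (#{t | t ^ 3 = b} * Fintype.card F) =
      Fintype.card F - κ * Fintype.card F := fun b => by
    rw [← hT, ← hT, ← Equiv.sum_comp (Equiv.mulLeft₀ a h0) (fun s => _ * ψ (s * b)), mul_sum, ← sum_sub_distrib,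
      sum_eq_single 0 (fun s _ hs => by
        rw [h s hs, Equiv.mulLeft₀_apply, mul_assoc κ, mul_left_comm s, mul_assoc a, sub_self]) (by simp)]
    simp
  have e1 : #{t | t ^ 3 = a} = 0 := card_eq_zero.2 (filter_eq_empty_iff.2 fun t _ e => ha ⟨t, e⟩)
  have e2 : #{t | t ^ 3 = a * a} = 0 := card_eq_zero.2 (filter_eq_empty_iff.2 fun t _ e => ha ⟨a / t, by
    have : t ≠ 0 := fun e' => by simp [e', h0] at e
    simp only [div_pow, e]; field_simp⟩)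
  have e3 : (#{t : F | t ^ 3 = 1} : ℂ) ≠ 0 := Nat.cast_ne_zero.2 (card_ne_zero.2 ⟨1, by simp⟩)
  have e4 : (Fintype.card F : ℂ) ≠ 0 := Nat.cast_ne_zero.2 Fintype.card_ne_zero
  have h1 := hb a
  have h2 := hb 1
  rw [e1, e2] at h1
  rw [mul_one, e1] at h2
  exact mul_ne_zero e3 e4 (by linear_combination (1 - #{t : F | t ^ 3 = 1} : ℂ) * h1 - h2)

variable {B : V →ₗ⋆[ℂ] V →ₗ[ℂ] ℂ} (hB : ∀ g y z, B y (ρ g z) = B (ρ g⁻¹ y) z)
include hB

theorem B_wt (hy : y ∈ Ws ρ ψ L) (h : (r, a) ∈ L) (t : F) : B y (ρ (x r t) z) = ψ (a * t) * B y z := by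
  rw [hB, xG_inv, hy _ h, mul_neg, AddChar.map_neg_eq_conj, map_smulₛₗ]; simp

theorem B_avg (hψ : ψ ≠ 1) {s : ℕ} (hy : y ∈ Ws ρ ψ L) (h : (r, 0) ∈ L) (hb : b ≠ 0)
    (h' : ∀ t, Mv ρ ψ (x s t) L [(r, b * t)]) : B y (∑ t, ρ (x s t) y) = B y y := by
  rw [map_sum, sum_eq_single 0 (fun t _ ht => by_contra fun e => mul_ne_zero hb ht
    (mulShift_inj hψ (AddChar.ext _ _ fun u => mul_right_cancel₀ e ?_))) (by simp)]
  · simp [xG_zero]
  · rw [AddChar.mulShift_apply, AddChar.mulShift_apply, ← B_wt hB hy h,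
      h' t y hy _ List.mem_cons_self, map_smul, smul_eq_mul]

theorem scale [FiniteDimensional ℂ V] (h : dm ρ ψ [(1, 0), (5, 0), (0, 0)] ≤ 1)
    (hy : y ∈ Ws ρ ψ [(5, 0), (0, 0)]) (ha : a ≠ 0) :
    ∃ κ : ℂ, ∀ s ≠ 0, B y (ρ (x 6 s) y) = κ * B y (ρ (x 6 (a * s)) y) := by
  have hx := stRel_xG chevG2 F
  have e1 : ∀ t, B y (ρ (x 6 (-t⁻¹)) y) = B y (ρ (nElt chevG2 x 5 t) y) := fun t => by
    rw [show x 6 _ = _ from hx.x_neg_eq ⟨5, by decide⟩ t, rep_mul, rep_mul, B_wt hB hy List.mem_cons_self,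
      hy _ List.mem_cons_self]
    simp
  have e2 : ∀ t ≠ 0, ∀ z, B (∑ u, ρ (x 1 u) z) (ρ (nElt chevG2 x 5 t) y) =
      Fintype.card F * B z (ρ (nElt chevG2 x 5 t) y) := fun t ht z => by
    rw [map_sum, LinearMap.sum_apply, sum_congr rfl fun u _ => ?_, sum_const, card_univ, nsmul_eq_mul]
    have := (r7_xG chevG2 F).conj ⟨5, by decide⟩ ⟨1, by decide⟩ (-t) (-u) (neg_ne_zero.2 ht)
    rw [refl_eq, hx.n_neg, inv_inv, mul_assoc, inv_mul_eq_iff_eq_mul] at this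
    rw [← inv_inv (x 1 u), ← hB, xG_inv, ← rep_mul, this, rep_mul]
    exact congrArg (B z) (congrArg _ ((hy (0, 0) (by simp) _).trans (by simp)))
  have e3 : ∀ t ≠ 0, nElt chevG2 x 5 (a * t) = hElt chevG2 x 5 a * nElt chevG2 x 5 t := fun t ht => by
    lift a to Fˣ using ha.isUnit
    lift t to Fˣ using ht.isUnit
    rw [hx.n_eq_h_mul ⟨5, by decide⟩, hx.n_eq_h_mul ⟨5, by decide⟩ t, ← Units.val_mul, hElt_eq_hG,
      ← mul_assoc, hElt_eq_hG, show hElt chevG2 x 5 (a : F) = _ from hElt_eq_hG ⟨5, by decide⟩ a, ← map_mul]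
    simp only [mul_zpow]; rfl
  have m : ∀ t, Mv ρ ψ (x 1 t) [(5, 0), (0, 0)] [(5, 0), (0, 0)] := fun _ => mv 0 Nat.cast_zero
  have e4 : (Fintype.card F : ℂ) ≠ 0 := Nat.cast_ne_zero.2 Fintype.card_ne_zero
  obtain ⟨κ, hκ⟩ : ∃ κ : ℂ, ∀ t ≠ 0, B y (ρ (nElt chevG2 x 5 (a * t)) y) =
      κ * B y (ρ (nElt chevG2 x 5 t) y) := by
    by_cases e : ∑ u, ρ (x 1 u) y = 0
    · refine ⟨0, fun t ht => mul_left_cancel₀ e4 ?_⟩
      rw [← e2 _ (mul_ne_zero ha ht), e]; simp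
    obtain ⟨c, hc⟩ := dm_one h (avg_mem m hy) (avg_mem m ((hmap 5 ha : Mv _ _ _ _ _) _ hy)) e
    refine ⟨star c, fun t ht => mul_left_cancel₀ e4 ?_⟩
    rw [e3 t ht, rep_mul, hB, ← e2 t ht, hc, map_smulₛₗ, mul_left_comm, ← e2 t ht]; rfl
  refine ⟨κ, fun s hs => ?_⟩
  have := hκ (-(a * s)⁻¹) (by simp [ha, hs])
  rw [← e1, ← e1] at this
  convert this using 5 <;> field_simp

omit hB in
theorem one_mod_three {k : ℕ} {ρ : chevG2.group F →* End ℂ (Fin k → ℂ)} (hψ : ψ ≠ 1) (h3 : (3 : F) ≠ 0)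
    (hq : 5 ≤ Fintype.card F) (hq' : Fintype.card F % 3 = 1) (h : ¬ ∀ t, x 11 t ∈ ρ.ker) :
    ¬ finrank ℂ (Fin k → ℂ) ≤ Fintype.card F ^ 3 := fun hk => by
  obtain ⟨B, hB, hB0⟩ := exists_form ρ
  have r1 := count hψ h3 hq hk h
  have r2 : dm ρ ψ [(1, 0), (5, 0), (0, 0)] ≤ dm ρ ψ [(6, 0), (10, 0), (11, 0)] := (nmap 11).le
  obtain ⟨w, hw, w0⟩ := dm_pos.1 (top10 hψ h3 hq hk h one_ne_zero)
  obtain ⟨v, hv, v0⟩ := dm_pos.1 ((top10 hψ h3 hq hk h (sg_ne (r := 8) (s := 10) (by decide) (by decide)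
    one_ne_zero)).trans_le (nmap 8 (L' := [(7, 0), (5, 0), (0, 0), (10, 1)])
      (h2 := by simp [lk, rf, sg_sq, -mul_one])).le)
  have b1 := B_avg hB hψ (s := 11) (r := 5) hv (by simp) one_ne_zero fun _ => mv 0 Nat.cast_zero
  have b2 := B_avg hB hψ (s := 7) (r := 9) hw (by simp) (neg_ne_zero.2 h3) fun _ => mv 0 Nat.cast_zero
  obtain ⟨c, hc⟩ := dm_one (line hψ h3 hq hk one_ne_zero) (y := ∑ t, ρ (x 11 t) v) (fun a ha =>
      avg_mem (L := [(7, 0), (10, 1)]) (fun _ => mv 0 Nat.cast_zero) (fun a ha => hv a (by revert a; simp))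
        a (by revert a; simp))
    (avg_mem (y := w) (fun _ => mv 0 Nat.cast_zero) fun a ha => hw a (by revert a; simp))
    fun e => v0 (hB0 _ (by rw [← b1, e, map_zero]))
  have e1 : ∀ s, c * B v (ρ (x 6 s) (∑ t, ρ (x 11 t) v)) = (∑ t, ψ (-t ^ 3 * s)) * B v w := fun s => by
    rw [← smul_eq_mul, ← map_smul, ← map_smul, ← hc, map_sum, map_sum, sum_mul]
    refine sum_congr rfl fun t _ => ?_
    rw [(mv 0 Nat.cast_zero : Mv ρ ψ (x 7 t) _ [(6, -t ^ 3)]) w hw _ List.mem_cons_self, map_smul,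
      B_wt hB hv List.mem_cons_self]
    simp
  have e2 : ∀ s ≠ 0, B v (ρ (x 6 s) (∑ t, ρ (x 11 t) v)) = Fintype.card F * B v (ρ (x 6 s) v) := fun s hs => by
    rw [map_sum, map_sum, sum_congr rfl fun t _ => ?_, sum_const, card_univ, nsmul_eq_mul]
    have h1 := swap (by decide : 10 < 12) (by decide : 6 < 12) (by decide) (-(t / s)) s
    simp [ct, mul_div_cancel₀, hs] at h1
    have h2 := B_wt hB (z := ρ (x 6 s) v) hv (r := 10) (a := 1) (by simp) (-(t / s))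
    rw [← rep_mul, h1, rep_mul, rep_mul, (mv 0 Nat.cast_zero : Mv ρ ψ (x 11 t) _ [(10, 1)]) v hv _
      List.mem_cons_self, map_smul, map_smul, smul_eq_mul] at h2
    exact mul_left_cancel₀ (ψ.val_isUnit _).ne_zero h2
  have e3 : B v w ≠ 0 := fun e => by
    have := e1 0
    simp only [xG_zero, map_one, End.one_apply, b1, e, mul_zero, mul_eq_zero] at this
    rcases this with e | e
    · exact w0 (hB0 _ (by rw [← b2, hc, e, zero_smul, map_zero]))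
    · exact v0 (hB0 _ e)
  refine no_scale hψ hq' fun a ha => ?_
  obtain ⟨κ, hκ⟩ := scale hB (y := v) (r2.trans (by omega)) (fun a ha => hv a (by revert a; simp)) ha
  refine ⟨κ, fun s hs => mul_right_cancel₀ e3 ?_⟩
  rw [mul_assoc, ← e1, ← e1, e2 s hs, e2 _ (mul_ne_zero ha hs), hκ s hs]; ring

end Cfsg.Agent.RD.G2
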