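import Cfsg.Agent.Lib.RD.G2a

/-!
Degrees of complex representations of `G₂(q)` in characteristic three.
-/

set_option autoImplicit false

namespace Cfsg.Agent.RD.G2

open Module Cfsg.Agent.Deg Cfsg.Agent.Chev Cfsg.Agent.ChevM Cfsg.Lie Finset Polynomial

variable {F : Type*} [Field F] [Fintype F] {V : Type*} [AddCommGroup V] [Module ℂ V]
  {ρ : chevG2.group F →* End ℂ V} {ψ : AddChar F ℂ} {L L' : List (ℕ × F)} {r : ℕ} {a b : F}
  [FiniteDimensional ℂ V] (hψ : ψ ≠ 1) (h3 : ((3 : ℕ) : F) = 0) (hq : 9 ≤ Fintype.card F)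
include h3

omit [Fintype F] in
theorem two_ne (ha : a ≠ 0) : 2 * a ≠ 0 := mul_ne_zero (fun e => one_ne_zero (α := F) (by
  push_cast at h3; linear_combination h3 - e)) ha

include hψ

theorem sl_two (ha : a ≠ 0) (b : F) : (Fintype.card F - 1) * dm ρ ψ [(8, 0), (9, a), (11, b)] +
    (Fintype.card F - 1) * (Fintype.card F * dm ρ ψ [(8, 0), (9, a), (11, b)]) ≤ dm ρ ψ [(11, b)] := by
  have s7 : ∀ a c u, Mv ρ ψ (x 7 u) [(8, c), (9, a), (11, b)] [(8, c + 2 * a * u), (9, a), (11, b)] :=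
    fun _ _ _ => mv 3 h3
  have s4 : ∀ c a u, Mv ρ ψ (x 4 u) [(9, a), (8, c), (11, b)] [(9, a + 2 * c * u), (8, c), (11, b)] :=
    fun _ _ _ => mv 3 h3
  refine le_trans (Nat.add_le_add_right (le_of_add_le_right (split hψ (r := 8) fun c hc => ?_)) _)
    (split hψ (r := 9) fun c hc => (Nat.mul_le_mul_left _ (hmap 7 (div_ne_zero hc ha)
      (h2 := by simp [lk, pr, mul_div_cancel₀, ha])).le).trans (heis hψ (two_ne h3 hc) (s7 c) 0))
  exact (lin (two_ne h3 ha) (s7 a) 0 c).trans (le_trans pm ((lin (two_ne h3 hc) (s4 c) a 0).trans pm))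

include hq

variable (h : ¬ ∀ t, x 9 t ∈ ρ.ker)
include h

theorem gen_pos (ha : a ≠ 0) (hb : b ≠ 0) : 0 < dm ρ ψ [(9, a), (11, b)] := by
  obtain ⟨a', ha', b', hb', e⟩ : ∃ a ≠ 0, ∃ b ≠ 0, 0 < dm ρ ψ [(9, a), (11, b)] := by
    by_contra! e
    have n1 : ∀ a ≠ 0, ∀ b ≠ 0, dm ρ ψ [(10, b), (9, a)] = 0 := fun a ha b hb => Nat.le_zero.1
      ((nmap 6 (h2 := by simp [lk, rf, mul_comm])).le.trans (e _ (sg_ne (r := 6) (s := 9) (by decide)
        (by decide) ha) _ (sg_ne (r := 6) (s := 11) (by decide) (by decide) hb)))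
    have n2 : ∀ a ≠ 0, ∀ b ≠ 0, dm ρ ψ [(6, b), (8, a)] = 0 := fun a ha b hb => Nat.le_zero.1
      ((nmap 7 (h2 := by simp [lk, rf, mul_comm])).le.trans (n1 _ (sg_ne (r := 7) (s := 9) (by decide)
        (by decide) ha) _ (sg_ne (r := 7) (s := 10) (by decide) (by decide) hb)).le)
    obtain ⟨a, ha, b1⟩ := exists_wt hψ h
    obtain ⟨b, b2⟩ := ex hψ (r := 6) (fun _ => mv 3 h3) (heis_pos hψ (s := 7) (r := 8) (two_ne h3 ha)
      (fun _ _ => mv 3 h3) (fun _ => mv 3 h3) ((b1.trans_le (triv hψ (r := 11) (fun _ => mv 3 h3)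
        fun c hc => Nat.le_zero.1 (le_trans pm (e a ha c hc)))).trans_le (triv hψ (r := 10) (fun _ => mv 3 h3)
          fun c hc => Nat.le_zero.1 (le_trans pm (n1 a ha c hc).le))) 0)
    have b3 : ∀ t ≠ 0, b + a * t ^ 2 = 0 := fun t ht => by_contra fun e => (b2.trans_le
      (mv 3 h3 : Mv ρ ψ (x 7 t) _ [(6, b + a * t ^ 2), (8, 2 * (a * t))]).le).ne'
        (n2 _ (two_ne h3 (mul_ne_zero ha ht)) _ e)
    obtain ⟨t, h0, -, h2, -⟩ := exists_gen (F := F) (by omega)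
    exact h2 (mul_left_cancel₀ ha (by linear_combination b3 t h0 - b3 1 one_ne_zero))
  exact (e.trans_le (hmap 7 (div_ne_zero ha ha') (L' := [(9, a), (11, b')])
    (h2 := by simp [lk, pr, mul_div_cancel₀, ha'])).le).trans_le
      (hmap 6 (div_ne_zero hb hb') (h2 := by simp [lk, pr, mul_div_cancel₀, hb'])).le

theorem gen_le (ha : a ≠ 0) (hb : b ≠ 0) : Fintype.card F * 1 ≤ dm ρ ψ [(8, 0), (9, a), (11, b)] :=
  (Nat.mul_le_mul_left _ (heis_pos hψ (s := 6) (r := 10) (neg_ne_zero.2 hb) (fun _ _ => mv 3 h3)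
    (fun _ => mv 3 h3) (heis_pos hψ (s := 7) (two_ne h3 ha) (fun _ _ => mv 3 h3) (fun _ => mv 3 h3)
      (gen_pos hψ h3 hq h ha hb) 0) 0)).trans (heis hψ (s := 6) (neg_ne_zero.2 hb) (fun _ _ => mv 3 h3) 0)

variable (hk : finrank ℂ V ≤ Fintype.card F ^ 4 + Fintype.card F ^ 2)
include hk

theorem n_le (ha : a ≠ 0) : dm ρ ψ [(8, 0), (9, a), (11, 0)] ≤ Fintype.card F + 2 := by
  have c1 := split hψ (ρ := ρ) (r := 11) (L := []) fun b hb => le_trans (add_le_add (Nat.mul_le_mul_left _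
    (gen_le hψ h3 hq h ha hb)) (Nat.mul_le_mul_left _ (Nat.mul_le_mul_left _ (gen_le hψ h3 hq h ha hb))))
      (sl_two hψ h3 ha b)
  have c2 := sl_two hψ h3 (ρ := ρ) ha 0
  rw [dm_nil] at c1
  obtain ⟨s, hs⟩ := Nat.exists_eq_add_of_le' hq
  rw [hs] at c1 c2 hk ⊢
  rw [show s + 9 - 1 = s + 8 from rfl] at c1 c2
  by_contra! e
  have := add_le_add (Nat.mul_le_mul_left (s + 8) e) (Nat.mul_le_mul_left (s + 8)
    (Nat.mul_le_mul_left (s + 9) e))
  have := (add_le_add_left (this.trans c2) _).trans (c1.trans hk)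
  simp only [Nat.succ_eq_add_one] at this
  ring_nf at this
  omega

omit hk in
theorem n_pos (ha : a ≠ 0) : 0 < dm ρ ψ [(8, 0), (9, a), (11, 0)] :=
  have ha' := sg_ne (r := 6) (s := 9) (by decide) (by decide) ha
  (heis_pos hψ (s := 8) (r := 7) (neg_ne_zero.2 (two_ne h3 ha')) (fun _ _ => mv 3 h3) (fun _ => mv 3 h3)
    (heis_pos hψ (s := 6) (r := 10) (neg_ne_zero.2 one_ne_zero) (fun _ _ => mv 3 h3) (fun _ => mv 3 h3)
      (gen_pos hψ h3 hq h ha' one_ne_zero) 0) 0).trans_le (nmap 6).le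

omit hk h hq in
theorem cub_le (hb : b ≠ 0) (e : 0 < dm ρ ψ [(6, b), (8, 0), (9, a), (11, 0)]) :
    Fintype.card F ≤ 3 * dm ρ ψ [(6, b), (8, 0), (9, a), (11, 0)] := by
  classical
  obtain ⟨c, e⟩ := ex hψ (r := 10) (fun _ => mv 3 h3) e
  have e1 : (C c - C a * X - C b * X ^ 3).natDegree = 3 := by compute_degree!
  have := FiniteField.card_image_polynomial_eval (natDegree_pos_iff_degree_pos.1 (e1 ▸ three_pos))
  rw [e1] at this
  refine this.trans (Nat.mul_le_mul_left _ ((mul_one _).ge.trans (card_le hψ (r := 10) _ ?_)))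
  simp only [mem_image, eval_sub, eval_mul, eval_C, eval_X, eval_pow]
  rintro _ ⟨u, -, rfl⟩
  exact e.trans_le (mv 3 h3 (s := 4) (u := u)).le

theorem six_eq (ha : a ≠ 0) (hb : b ≠ 0) : dm ρ ψ [(6, b), (8, 0), (9, a), (11, 0)] = 0 := by
  classical
  by_contra e
  have b0 := n_le hψ h3 hq h hk ha
  have e1 : (C b * X ^ 2).natDegree = 2 := by compute_degree!
  have e2 := FiniteField.card_image_polynomial_eval (natDegree_pos_iff_degree_pos.1 (e1 ▸ two_pos))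
  have e3 := card_le hψ (ρ := ρ) (r := 6) (L := [(8, 0), (9, a), (11, 0)]) (d := (Fintype.card F + 2) / 3)
    ((univ.image fun t => (C b * X ^ 2).eval t).erase 0) (by
      simp only [mem_erase, mem_image]
      rintro _ ⟨h0, t, -, rfl⟩
      have := cub_le hψ h3 (a := a) h0 ((Nat.pos_of_ne_zero e).trans_le
        (hmap 6 (t := t) (by rintro rfl; simp at h0)).le)
      omega)
  have e4 := pred_card_le_card_erase (a := 0) (s := univ.image fun t => (C b * X ^ 2).eval t)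
  rw [e1] at e2
  have := (Nat.mul_le_mul_right _ (by omega : 4 ≤ _)).trans e3
  omega

theorem half (ha : a ≠ 0) : 0 < dm ρ ψ [(1, 0), (4, 0), (6, 0), (8, 0), (9, a), (11, 0)] ∧
    Fintype.card F * 1 ≤ dm ρ ψ [(6, 0), (8, 0), (9, a), (11, 0)] := by
  have b0 := n_le hψ h3 hq h hk ha
  have b3 := (n_pos hψ h3 hq h ha).trans_le (triv hψ (r := 6) (fun _ => mv 3 h3)
    fun b => six_eq hψ h3 hq h hk ha)
  have s10 : ∀ c u, Mv ρ ψ (x 10 u) [(4, c), (6, 0), (8, 0), (9, a), (11, 0)]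
    [(4, c + a * u), (6, 0), (8, 0), (9, a), (11, 0)] := fun _ _ => mv 3 h3
  have b4 := heis_pos hψ ha s10 (fun _ => mv 3 h3) b3 0
  have b5 := heis hψ ha s10 0
  obtain ⟨t, h0, h1, -⟩ := exists_gen (F := F) (by omega)
  refine ⟨b4.trans_le (triv_one hψ (fun _ => mv 3 h3) (not_lt.1 fun e => ?_) h1 fun _ => hmap 6 h0),
    (Nat.mul_le_mul_left _ b4).trans b5⟩
  have := (Nat.mul_le_mul_left _ e).trans (b5.trans (le_trans pm b0))
  omega

theorem half' (ha : a ≠ 0) : Fintype.card F * (Fintype.card F * 1) ≤ dm ρ ψ [(9, a), (11, 0)] ∧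
    Fintype.card F * 1 ≤ dm ρ ψ [(8, a), (9, 0), (10, 0), (11, 0)] ∧
    1 ≤ dm ρ ψ [(7, a), (6, 0), (8, 0), (9, 0), (10, 0), (11, 0)] :=
  ⟨(Nat.mul_le_mul_left _ ((half hψ h3 hq h hk ha).2.trans pm)).trans
      (heis hψ (s := 7) (r := 8) (two_ne h3 ha) (fun _ _ => mv 3 h3) 0),
    (half hψ h3 hq h hk (sg_ne (r := 7) (s := 8) (by decide) (by decide) ha)).2.trans (nmap 7).le,
    ((half hψ h3 hq h hk (sg_ne (r := 7) (s := 8) (by decide) (by decide) (sg_ne (r := 6) (s := 7)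
      (by decide) (by decide) ha))).1.trans_le (nmap 7 (L' := [(5, 0), (7, 0), (8, sg F 6 7 * a), (9, 0),
        (10, 0), (11, 0)])).le).trans_le (nmap 6).le⟩

omit hψ h3 hq h hk in
theorem dual [CharP F 3] [Fact (Nat.Prime 3)] (h1 : ∀ s ∈ L'.map Prod.fst, s < 12 ∧
      twG2.π s ∈ L.map Prod.fst := by dsimp only [List.map]; decide)
    (h2 : ∀ a ∈ L', twG2.e (twG2.π a.1) = 3 ∧ a.2 = lk L (twG2.π a.1) ^ 3 ∨
      a.2 = 0 ∧ lk L (twG2.π a.1) = 0) :
    dm (ρ.comp (twOK_G2 F).aut.toMonoidHom) (ψ.compAddMonoidHom (frobenius F 3)) L ≤ dm ρ ψ L' :=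
  Submodule.finrank_mono fun v hv a ha t => by
    obtain ⟨e1, e2⟩ := h1 a.1 (List.mem_map_of_mem ha)
    obtain ⟨e3, e4, e5⟩ := (by decide : ∀ s < 12, twG2.π s < 12 ∧ twG2.π (twG2.π s) = s ∧
      twG2.ε (twG2.π s) = 1) _ e1
    obtain ⟨s, rfl⟩ := (twOK_G2 F).surj (twG2.π a.1) t
    have := hv _ (lk_mem e2) s
    rw [MonoidHom.comp_apply, MulEquiv.coe_toMonoidHom, (twOK_G2 F).aut_xG e3, e4, e5] at this
    rcases h2 a ha with ⟨e, e'⟩ | ⟨e, e'⟩ <;> simpa [e, e', frobenius_def, mul_pow] using this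

theorem count3 (h' : ¬ ∀ t, x 11 t ∈ ρ.ker) :
    Fintype.card F ^ 4 + Fintype.card F ^ 2 ≤ finrank ℂ V + 2 := by
  have : Fact (Nat.Prime 3) := ⟨by norm_num⟩
  have : CharP F 3 := (CharP.charP_iff_prime_eq_zero Nat.prime_three).2 h3
  have hs : Function.Surjective fun t : F => t ^ 3 := surjective_frobenius F 3
  have d : ∀ b ≠ 0, Fintype.card F * (Fintype.card F * 1) ≤ dm ρ ψ [(9, 0), (11, b)] ∧
      Fintype.card F * 1 ≤ dm ρ ψ [(10, b), (9, 0), (11, 0)] ∧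
      1 ≤ dm ρ ψ [(6, b), (8, 0), (10, 0), (9, 0), (11, 0)] := fun b hb => by
    obtain ⟨a, rfl⟩ := hs b
    have := half' (ρ := ρ.comp (twOK_G2 F).aut.toMonoidHom) (ψ := ψ.compAddMonoidHom (frobenius F 3))
      (fun e => hψ (AddChar.ext _ _ fun t => by
        obtain ⟨t, rfl⟩ := hs t
        exact DFunLike.congr_fun e t)) h3 hq (fun e => h' fun t => by
        obtain ⟨t, rfl⟩ := hs t
        have := e t
        rw [MonoidHom.mem_ker, MonoidHom.comp_apply, MulEquiv.coe_toMonoidHom,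
          (twOK_G2 F).aut_xG (by decide)] at this
        simpa [show twG2.ε 9 = 1 ∧ twG2.π 9 = 11 ∧ twG2.e 9 = 3 by decide] using this) hk (a := a) (by rintro rfl; simp at hb)
    have e : twG2.π 6 = 7 ∧ twG2.π 7 = 6 ∧ twG2.π 8 = 10 ∧ twG2.π 9 = 11 ∧ twG2.π 10 = 8 ∧
      twG2.π 11 = 9 ∧ twG2.e 7 = 3 ∧ twG2.e 8 = 3 ∧ twG2.e 9 = 3 := by decide
    exact ⟨this.1.trans (dual (h2 := by simp [lk, e])), this.2.1.trans (dual (h2 := by simp [lk, e])),
      this.2.2.trans (dual (h2 := by simp [lk, e]))⟩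
  have d' := fun a (ha : a ≠ 0) => half' hψ h3 hq h hk ha
  have c1 := split hψ (ρ := ρ) (r := 11) (L := []) fun b hb => (Nat.add_le_add_right (d b hb).1 _).trans
    (split hψ fun a ha => (Nat.mul_le_mul_left _ (gen_le hψ h3 hq h ha hb)).trans
      (heis hψ (s := 7) (r := 8) (two_ne h3 ha) (fun _ _ => mv 3 h3) 0))
  have c2 := split hψ fun a ha => (d' a ha).1
  have c3 := split hψ fun a ha => (d a ha).2.1
  have c4 := split hψ (r := 8) (L := [(10, 0), (9, 0), (11, 0)]) fun a ha => (d' a ha).2.1.trans pm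
  have c5 := split hψ fun a ha => (d a ha).2.2
  have c6 := split hψ (r := 7) (L := [(6, 0), (8, 0), (10, 0), (9, 0), (11, 0)]) fun a ha => (d' a ha).2.2.trans pm
  rw [dm_nil] at c1
  obtain ⟨s, hs⟩ := Nat.exists_eq_add_of_le' hq
  rw [hs, show s + 9 - 1 = s + 8 from rfl] at c1 c2 c3 c4 c5 c6
  rw [hs]
  ring_nf at c1 c2 c3 c4 c5 c6 ⊢
  omega

end Cfsg.Agent.RD.G2
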